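import Cfsg.Agent.Lib.Helper35.JR.Defs

/-!
# JR package [FUS] (S3206)

In a nonabelian simple group whose Sylow 2-subgroups are elementary abelian of order 8, the
normalizer of a Sylow 2-subgroup `S` is transitive on the involutions of `S`.
-/

set_option autoImplicit false

namespace Cfsg.Agent.Lib.Helper88.JR

open Cfsg.Agent.Lib.Helper35.JR

universe u

section

variable {G : Type u} [Group G]

/-- a group of exponent 2 is commutative (inside a subgroup). -/
theorem fus_comm (H : Subgroup G) (hexp : ∀ x ∈ H, x ^ 2 = 1) :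
    ∀ x ∈ H, ∀ y ∈ H, x * y = y * x := by
  intro x hx y hy
  have h1 := hexp x hx
  have h2 := hexp y hy
  have h3 := hexp (x * y) (mul_mem hx hy)
  have hx' : x⁻¹ = x := by rw [inv_eq_iff_mul_eq_one, ← sq]; exact h1
  have hy' : y⁻¹ = y := by rw [inv_eq_iff_mul_eq_one, ← sq]; exact h2
  have hxy : (x * y)⁻¹ = x * y := by rw [inv_eq_iff_mul_eq_one, ← sq]; exact h3
  calc x * y = (x * y)⁻¹ := hxy.symm
    _ = y⁻¹ * x⁻¹ := mul_inv_rev x y
    _ = y * x := by rw [hx', hy']

/-- The conjugation action of a subgroup on the group. -/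
@[reducible] def fusAct (N : Subgroup G) : MulAction N G :=
  MulAction.compHom G ((MulAut.conj : G →* MulAut G).comp N.subtype)

variable [Finite G]

/-- No nonidentity element of an elementary abelian Sylow 2-subgroup `S` of a nonabelian simple
group is centralized by `N_G(S)` (transfer). -/
theorem fus_no_fixed [IsSimpleGroup G] (hnc : ¬ IsMulCommutative G) (S : Sylow 2 G)
    (hexp : ∀ x ∈ (S : Subgroup G), x ^ 2 = 1) (s : G) (hs : s ∈ (S : Subgroup G)) (hs1 : s ≠ 1)
    (hfix : ∀ n ∈ Subgroup.normalizer ((S : Subgroup G) : Set G), n * s * n⁻¹ = s) : False := by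
  have : Fact (Nat.Prime 2) := ⟨Nat.prime_two⟩
  have hcomm := fus_comm (S : Subgroup G) hexp
  let _ : CommGroup (S : Subgroup G) :=
    { (inferInstance : Group (S : Subgroup G)) with
      mul_comm := fun x y => Subtype.ext (hcomm x x.2 y y.2) }
  let τ : G →* (S : Subgroup G) := MonoidHom.transfer (MonoidHom.id (S : Subgroup G))
  have hcent : ∀ x ∈ (S : Subgroup G), x ∈ Subgroup.centralizer ((S : Subgroup G) : Set G) := by
    intro x hx
    rw [Subgroup.mem_centralizer_iff]
    intro y hy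
    exact hcomm y hy x hx
  have hs2 : s ^ 2 = 1 := hexp s hs
  have key : ∀ (k : ℕ) (g₀ : G), g₀⁻¹ * s ^ k * g₀ ∈ (S : Subgroup G) →
      g₀⁻¹ * s ^ k * g₀ = s ^ k := by
    intro k g₀ hk
    rw [pow_eq_pow_mod k hs2] at hk ⊢
    rcases Nat.mod_two_eq_zero_or_one k with h0 | h0
    · rw [h0]; simp
    · rw [h0, pow_one] at hk ⊢
      obtain ⟨n, hn, hn2⟩ := S.conj_eq_normalizer_conj_of_mem_centralizer s g₀ (hcent s hs)
        (hcent _ hk)
      rw [hn2]
      have h1 := hfix n⁻¹ (inv_mem hn)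
      rwa [inv_inv] at h1
  have h1 : τ s = (MonoidHom.id (S : Subgroup G))
      ⟨s ^ (S : Subgroup G).index, MonoidHom.transfer_eq_pow_aux s key⟩ :=
    MonoidHom.transfer_eq_pow _ s key
  have hodd : ¬ 2 ∣ (S : Subgroup G).index := S.not_dvd_index
  have hpow : s ^ (S : Subgroup G).index = s := by
    rw [pow_eq_pow_mod _ hs2]
    have : (S : Subgroup G).index % 2 = 1 := by omega
    rw [this, pow_one]
  have h2 : (τ s : G) = s := by
    rw [h1]
    exact hpow
  have hker : τ.ker = ⊥ ∨ τ.ker = ⊤ := (MonoidHom.normal_ker τ).eq_bot_or_eq_top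
  rcases hker with hb | ht
  · apply hnc
    refine ⟨⟨fun x y => ?_⟩⟩
    have hinj : Function.Injective τ := (MonoidHom.ker_eq_bot_iff τ).mp hb
    apply hinj
    rw [map_mul, map_mul, mul_comm]
  · have h3 : s ∈ τ.ker := by rw [ht]; exact Subgroup.mem_top s
    have h4 : τ s = 1 := MonoidHom.mem_ker.mp h3
    rw [h4] at h2
    exact hs1 h2.symm

/-- [FUS] -/
theorem pkgFus : PkgFus.{u} := by
  intro G _ _ _ hnc hS8 S s hs hs1 s' hs' hs1'
  classical
  have : Fact (Nat.Prime 2) := ⟨Nat.prime_two⟩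
  obtain ⟨hcard, hexp⟩ := hS8 S
  have hcomm := fus_comm (S : Subgroup G) hexp
  let act : MulAction (Subgroup.normalizer ((S : Subgroup G) : Set G)) G :=
    fusAct (Subgroup.normalizer ((S : Subgroup G) : Set G))
  have hsmul : ∀ (n : Subgroup.normalizer ((S : Subgroup G) : Set G)) (x : G),
      n • x = (n : G) * x * (n : G)⁻¹ := fun n x => rfl
  let O : G → Set G := fun x => MulAction.orbit (Subgroup.normalizer ((S : Subgroup G) : Set G)) x
  let T : Set G := {x | x ∈ (S : Subgroup G) ∧ x ≠ 1}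
  have hfin : ∀ A : Set G, A.Finite := fun A => Set.toFinite A
  have hT : T.ncard = 7 := by
    have h1 : ((S : Subgroup G) : Set G).ncard = 8 := by
      rw [← hcard]
      exact (Nat.card_coe_set_eq _).symm
    have h2 : T = ((S : Subgroup G) : Set G) \ {1} := by
      ext x
      exact Iff.rfl
    rw [h2, Set.ncard_sdiff_singleton_of_mem (one_mem _), h1]
  have horbT : ∀ x ∈ T, O x ⊆ T := by
    rintro x ⟨hx, hx1⟩ _ ⟨n, rfl⟩
    refine ⟨?_, ?_⟩
    · show n • x ∈ (S : Subgroup G)
      rw [hsmul]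
      exact (Subgroup.mem_normalizer_iff.mp n.2 x).mp hx
    · show n • x ≠ 1
      rw [hsmul]
      intro h
      apply hx1
      have h' := congrArg (fun y => (n : G)⁻¹ * y * (n : G)) h
      simpa [mul_assoc] using h'
  have hodd : ∀ x ∈ T, (O x).ncard % 2 = 1 := by
    intro x hx
    show (MulAction.orbit (Subgroup.normalizer ((S : Subgroup G) : Set G)) x).ncard % 2 = 1
    rw [← MulAction.index_stabilizer]
    have hle : (S : Subgroup G).subgroupOf (Subgroup.normalizer ((S : Subgroup G) : Set G)) ≤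
        MulAction.stabilizer (Subgroup.normalizer ((S : Subgroup G) : Set G)) x := by
      intro n hn
      rw [MulAction.mem_stabilizer_iff, hsmul]
      have hn' : (n : G) ∈ (S : Subgroup G) := Subgroup.mem_subgroupOf.mp hn
      rw [hcomm _ hn' _ hx.1, mul_inv_cancel_right]
    have hdvd : (MulAction.stabilizer (Subgroup.normalizer ((S : Subgroup G) : Set G)) x).index ∣
        (S : Subgroup G).index := by
      have h1 := Subgroup.index_dvd_of_le hle
      have h2 : ((S : Subgroup G).subgroupOf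
          (Subgroup.normalizer ((S : Subgroup G) : Set G))).index ∣ (S : Subgroup G).index :=
        Subgroup.relIndex_dvd_index_of_le Subgroup.le_normalizer
      exact h1.trans h2
    have h2 : ¬ 2 ∣ (S : Subgroup G).index := S.not_dvd_index
    have h3 : ¬ 2 ∣ (MulAction.stabilizer (Subgroup.normalizer ((S : Subgroup G) : Set G)) x).index :=
      fun h => h2 (h.trans hdvd)
    omega
  have hne1 : ∀ x ∈ T, (O x).ncard ≠ 1 := by
    intro x hx h1
    obtain ⟨y, hy⟩ := Set.ncard_eq_one.mp h1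
    have hxy : x = y := by
      have h2 : x ∈ O x := MulAction.mem_orbit_self x
      rw [hy] at h2
      exact h2
    refine fus_no_fixed hnc S hexp x hx.1 hx.2 fun n hn => ?_
    have h3 : (⟨n, hn⟩ : Subgroup.normalizer ((S : Subgroup G) : Set G)) • x ∈ O x :=
      MulAction.mem_orbit x _
    rw [hy, Set.mem_singleton_iff, ← hxy] at h3
    exact h3
  have hdisj : ∀ x y : G, y ∉ O x → Disjoint (O x) (O y) := by
    intro x y hy
    rw [Set.disjoint_left]
    intro z hzx hzy
    apply hy
    have h1 : O z = O x := MulAction.orbit_eq_iff.mpr hzx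
    have h2 : O z = O y := MulAction.orbit_eq_iff.mpr hzy
    rw [← h1, h2]
    exact MulAction.mem_orbit_self y
  by_contra hcon
  have hs'O : s' ∉ O s := by
    rintro ⟨n, hn⟩
    exact hcon ⟨n, n.2, hn⟩
  have hsT : s ∈ T := ⟨hs, hs1⟩
  have hs'T : s' ∈ T := ⟨hs', hs1'⟩
  have hd1 := hdisj s s' hs'O
  have hU : (O s ∪ O s').ncard = (O s).ncard + (O s').ncard :=
    Set.ncard_union_eq hd1 (hfin _) (hfin _)
  have hUT : O s ∪ O s' ⊆ T := Set.union_subset (horbT s hsT) (horbT s' hs'T)
  have hle := Set.ncard_le_ncard hUT (hfin T)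
  have ha := hodd s hsT
  have hb := hodd s' hs'T
  have ha1 := hne1 s hsT
  have hb1 := hne1 s' hs'T
  have hlt : (O s ∪ O s').ncard < T.ncard := by omega
  obtain ⟨z, hzT, hzU⟩ := Set.exists_mem_notMem_of_ncard_lt_ncard hlt (hfin _)
  have hz1 : z ∉ O s := fun h => hzU (Or.inl h)
  have hz2 : z ∉ O s' := fun h => hzU (Or.inr h)
  have hd2 : Disjoint (O s ∪ O s') (O z) := by
    rw [Set.disjoint_union_left]
    exact ⟨hdisj s z hz1, hdisj s' z hz2⟩
  have hU2 := Set.ncard_union_eq hd2 (hfin _) (hfin _)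
  have hUT2 : (O s ∪ O s') ∪ O z ⊆ T := Set.union_subset hUT (horbT z hzT)
  have hle2 := Set.ncard_le_ncard hUT2 (hfin T)
  have hc := hodd z hzT
  have hc1 := hne1 z hzT
  omega

end

end Cfsg.Agent.Lib.Helper88.JR
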